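import Cfsg.Agent.H170.L34.Cases

/-!
# Flag systems (helper170, S5917, row M1)

`branch` : a simple submodule with a vector fixed by the Borel subgroup is trivial, of type nine or of the dual type, or the
two panel sums of this vector vanish.
-/

set_option autoImplicit false
set_option linter.unusedSectionVars false
set_option linter.unusedSimpArgs false

namespace Cfsg.Agent.H170.L34

open Matrix Cfsg.Agent.H691.L34
open scoped MatrixGroups

section flags

variable {F : Type} [Field F] {V : Type} [AddCommGroup V] [Module (ZMod 2) V]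
  {ρ : Representation (ZMod 2) (G3 F) V} {w : V}

/-- `(u, f)` is the image of the standard flag under `g` -/
def Fl (g : G3 F) (u f : Fin 3 → F) : Prop := (g : M3 F) *ᵥ ![1, 0, 0] = u ∧ ((it g : G3 F) : M3 F) *ᵥ ![0, 0, 1] = f

theorem Fl.mul {g : G3 F} {u f : Fin 3 → F} (h : Fl g u f) (k : G3 F) :
    Fl (k * g) ((k : M3 F) *ᵥ u) (((it k : G3 F) : M3 F) *ᵥ f) := by
  refine ⟨?_, ?_⟩
  · rw [mv_mul, h.1]
  · rw [map_mul, mv_mul, h.2]

theorem fl_one : Fl (1 : G3 F) ![1, 0, 0] ![0, 0, 1] := by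
  refine ⟨mv_one _, ?_⟩
  rw [map_one, mv_one]

/-- the stabiliser of the standard flag is upper triangular -/
theorem fl_upper {b : G3 F} (h : Fl b ![1, 0, 0] ![0, 0, 1]) : b.1 1 0 = 0 ∧ b.1 2 0 = 0 ∧ b.1 2 1 = 0 := by
  obtain ⟨h1, h3⟩ := h
  have h5 : (b : M3 F).transpose *ᵥ ![0, 0, 1] = ![0, 0, 1] := by
    have e : ((it b : G3 F) : M3 F) *ᵥ ((b : M3 F).transpose *ᵥ ![0, 0, 1]) = ![0, 0, 1] := it_eq rfl
    apply (mvE (it b)).injective
    rw [mvE_apply, mvE_apply, e, h3]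
  have e1 := congrFun h1 1
  have e2 := congrFun h1 2
  have e3 := congrFun h5 0
  have e4 := congrFun h5 1
  simp [Matrix.mulVec, dotProduct, Fin.sum_univ_three] at e1 e2 e3 e4
  exact ⟨e1, e2, e4⟩

open Classical in
/-- the flag system of a vector -/
noncomputable def X0 (ρ : Representation (ZMod 2) (G3 F) V) (w : V) (u f : Fin 3 → F) : V :=
  if h : ∃ g : G3 F, Fl g u f then ρ h.choose w else 0

variable (hB : ∀ g : G3 F, g.1 1 0 = 0 → g.1 2 0 = 0 → g.1 2 1 = 0 → ρ g w = w)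
include hB

theorem X0_eq {g : G3 F} {u f : Fin 3 → F} (h : Fl g u f) : X0 ρ w u f = ρ g w := by
  have he : ∃ g : G3 F, Fl g u f := ⟨g, h⟩
  rw [X0, dif_pos he]
  set k := he.choose with hk
  have hk' : Fl k u f := he.choose_spec
  have h1 : Fl (g⁻¹ * k) ![1, 0, 0] ![0, 0, 1] := by
    have h3 := hk'.mul g⁻¹
    have h5 := h.mul g⁻¹
    rw [inv_mul_cancel] at h5
    have e1 := h5.1
    have e2 := h5.2
    rw [mv_one] at e1
    rw [map_one, mv_one] at e2
    rw [← e1, ← e2] at h3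
    exact h3
  obtain ⟨a, b, c⟩ := fl_upper h1
  have h3 := hB (g⁻¹ * k) a b c
  have h5 : ρ k w = ρ g (ρ (g⁻¹ * k) w) := by
    rw [← Module.End.mul_apply, ← map_mul, mul_inv_cancel_left]
  rw [h5, h3]

theorem X0_act (g : G3 F) (u f : Fin 3 → F) :
    ρ g (X0 ρ w u f) = X0 ρ w ((g : M3 F) *ᵥ u) (((it g : G3 F) : M3 F) *ᵥ f) := by
  by_cases he : ∃ k : G3 F, Fl k u f
  · obtain ⟨k, hk⟩ := he
    rw [X0_eq hB hk, X0_eq hB (hk.mul g), map_mul, Module.End.mul_apply]
  · rw [X0, dif_neg he, map_zero, X0, dif_neg]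
    rintro ⟨k, hk⟩
    apply he
    refine ⟨g⁻¹ * k, ?_⟩
    have h3 := hk.mul g⁻¹
    rw [← mv_mul, inv_mul_cancel, mv_one, ← mv_mul, ← map_mul, inv_mul_cancel, map_one, mv_one] at h3
    exact h3

omit hB in
theorem fl_smul {c d : F} (hc : c ≠ 0) (hd : d ≠ 0) {g : G3 F} {u f : Fin 3 → F} (h : Fl g u f) :
    ∃ b : G3 F, (b.1 1 0 = 0 ∧ b.1 2 0 = 0 ∧ b.1 2 1 = 0) ∧ Fl (g * b) (c • u) (d • f) := by
  have hdet : (diagonal ![c, c⁻¹ * d, d⁻¹] : M3 F).det = 1 := by
    have e : c * (c⁻¹ * d) * d⁻¹ = 1 := by rw [mul_inv_cancel_left₀ hc, mul_inv_cancel₀ hd]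
    rw [Matrix.det_diagonal, Fin.prod_univ_three]
    exact e
  obtain ⟨b, hb⟩ : ∃ b : G3 F, b.1 = diagonal ![c, c⁻¹ * d, d⁻¹] := ⟨⟨_, hdet⟩, rfl⟩
  refine ⟨b, ⟨?_, ?_, ?_⟩, ?_, ?_⟩
  · rw [hb]; simp
  · rw [hb]; simp
  · rw [hb]; simp
  · rw [mv_mul, ← h.1, ← Matrix.mulVec_smul]
    congr 1
    show b.1 *ᵥ _ = _
    rw [hb]
    ext i
    rw [Matrix.mulVec_diagonal]
    fin_cases i <;> simp
  · rw [map_mul, mv_mul, ← h.2, ← Matrix.mulVec_smul]
    congr 1
    apply it_eq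
    show b.1.transpose *ᵥ _ = _
    rw [hb]
    ext i
    rw [Matrix.diagonal_transpose, Matrix.mulVec_diagonal]
    fin_cases i <;> simp [hd]

theorem X0_smul {c d : F} (hc : c ≠ 0) (hd : d ≠ 0) (u f : Fin 3 → F) : X0 ρ w (c • u) (d • f) = X0 ρ w u f := by
  by_cases he : ∃ k : G3 F, Fl k u f
  · obtain ⟨k, hk⟩ := he
    obtain ⟨b, ⟨h1, h3, h5⟩, h7⟩ := fl_smul hc hd hk
    rw [X0_eq hB hk, X0_eq hB h7, map_mul, Module.End.mul_apply, hB b h1 h3 h5]
  · rw [X0, X0, dif_neg he, dif_neg]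
    rintro ⟨k, hk⟩
    obtain ⟨b, _, h7⟩ := fl_smul (inv_ne_zero hc) (inv_ne_zero hd) hk
    apply he
    refine ⟨k * b, ?_⟩
    rw [inv_smul_smul₀ hc, inv_smul_smul₀ hd] at h7
    exact h7

omit hB in
theorem X0_supp {u f : Fin 3 → F} (h : X0 ρ w u f ≠ 0) : u ≠ 0 ∧ f ≠ 0 ∧ f ⬝ᵥ u = 0 := by
  by_cases he : ∃ k : G3 F, Fl k u f
  · obtain ⟨k, hk⟩ := he
    refine ⟨?_, ?_, ?_⟩
    · rw [← hk.1, Ne, mv_eq_zero]
      intro h0
      exact one_ne_zero (α := F) (congrFun h0 0)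
    · rw [← hk.2, Ne, mv_eq_zero]
      intro h0
      exact one_ne_zero (α := F) (congrFun h0 2)
    · rw [← hk.1, ← hk.2, it_dot]
      simp
  · rw [X0, dif_neg he] at h
    exact absurd rfl h

omit hB in
theorem X0_mem {W : Submodule (ZMod 2) V} (hW : Inv ρ W) (hw : w ∈ W) (u f : Fin 3 → F) : X0 ρ w u f ∈ W := by
  rw [X0]
  split_ifs with he
  · exact hW _ _ hw
  · exact W.zero_mem

theorem psys_pt [Fintype F] [DecidableEq F] : PSys ρ (fun u => ∑ f, X0 ρ w u f) where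
  zero := Finset.sum_eq_zero fun f _ => by
    by_contra h
    exact (X0_supp h).1 rfl
  smul c u hc := Finset.sum_congr rfl fun f _ => by
    have h3 := X0_smul hB hc one_ne_zero u f
    rw [one_smul] at h3
    exact h3
  act g u := by
    rw [map_sum, ← Equiv.sum_comp (mvE (it g)) (fun f => X0 ρ w ((g : M3 F) *ᵥ u) f)]
    exact Finset.sum_congr rfl fun f _ => X0_act hB g u f

theorem psys_ln [Fintype F] [DecidableEq F] : PSys (rt ρ) (fun f => ∑ u, X0 ρ w u f) where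
  zero := Finset.sum_eq_zero fun u _ => by
    by_contra h
    exact (X0_supp h).2.1 rfl
  smul d f hd := Finset.sum_congr rfl fun u _ => by
    have h3 := X0_smul hB one_ne_zero hd u f
    rw [one_smul] at h3
    exact h3
  act g f := by
    rw [map_sum, ← Equiv.sum_comp (mvE (it g)) (fun u => X0 ρ w u ((g : M3 F) *ᵥ f))]
    refine Finset.sum_congr rfl fun u _ => ?_
    rw [rt_apply, X0_act hB (it g) u f, it_it]
    rfl

end flags

section sums

variable {F : Type} [Field F] [Fintype F] [DecidableEq F] {p q : F} (h : Four p q)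
  {V : Type} [AddCommGroup V] [Module (ZMod 2) V] {y : (Fin 3 → F) → V}
include h

theorem sum_a (hz : y 0 = 0) (hs : ∀ (c : F) (u : Fin 3 → F), c ≠ 0 → y (c • u) = y u)
    (h0 : ∀ u : Fin 3 → F, u 0 ≠ 0 → y u = 0) : ∑ u, y u = y ![0, 0, 1] + ∑ m, y ![0, 1, m] := by
  have h3 : ∑ u, y u = ∑ x : F × F, y (x.1 • ![0, 1, 0] + x.2 • ![0, 0, 1]) := by
    symm
    refine Finset.sum_of_injOn (fun x => x.1 • ![0, 1, 0] + x.2 • ![0, 0, 1]) ?_ ?_ ?_ (fun _ _ => rfl)
    · intro x _ x' _ he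
      have e0 := congrFun he 1
      have e1 := congrFun he 2
      simp at e0 e1
      exact Prod.ext e0 e1
    · intro x _
      exact Finset.mem_coe.2 (Finset.mem_univ _)
    · intro u _ hu
      apply h0
      intro hu0
      apply hu
      refine ⟨(u 1, u 2), Finset.mem_coe.2 (Finset.mem_univ _), ?_⟩
      ext i
      fin_cases i
      · simp [hu0]
      · simp
      · simp
  rw [h3, sum_plane h (fun w => self_add w) hz hs]
  congr 1
  refine Finset.sum_congr rfl fun b _ => ?_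
  congr 1
  ext i
  fin_cases i <;> simp

theorem sum_b (hz : y 0 = 0) (hs : ∀ (c : F) (u : Fin 3 → F), c ≠ 0 → y (c • u) = y u)
    (h0 : ∀ u : Fin 3 → F, u 2 ≠ 0 → y u = 0) : ∑ u, y u = y ![1, 0, 0] + ∑ m, y ![m, 1, 0] := by
  have h3 : ∑ u, y u = ∑ x : F × F, y (x.1 • ![0, 1, 0] + x.2 • ![1, 0, 0]) := by
    symm
    refine Finset.sum_of_injOn (fun x => x.1 • ![0, 1, 0] + x.2 • ![1, 0, 0]) ?_ ?_ ?_ (fun _ _ => rfl)
    · intro x _ x' _ he
      have e0 := congrFun he 1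
      have e1 := congrFun he 0
      simp at e0 e1
      exact Prod.ext e0 e1
    · intro x _
      exact Finset.mem_coe.2 (Finset.mem_univ _)
    · intro u _ hu
      apply h0
      intro hu0
      apply hu
      refine ⟨(u 1, u 0), Finset.mem_coe.2 (Finset.mem_univ _), ?_⟩
      ext i
      fin_cases i
      · simp
      · simp
      · simp [hu0]
  rw [h3, sum_plane h (fun w => self_add w) hz hs]
  congr 1
  refine Finset.sum_congr rfl fun b _ => ?_
  congr 1
  ext i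
  fin_cases i <;> simp

end sums

section main

variable {F : Type} [Field F] [Fintype F] {V : Type} [AddCommGroup V] [Module (ZMod 2) V] [Module.Finite (ZMod 2) V]
  {ρ : Representation (ZMod 2) (G3 F) V}

theorem branch (hF : Fintype.card F = 4) {W : Submodule (ZMod 2) V} (hW : Simp ρ W) {w : V} (hw : w ∈ W)
    (hB : ∀ g : G3 F, g.1 1 0 = 0 → g.1 2 0 = 0 → g.1 2 1 = 0 → ρ g w = w) :
    ((∀ v ∈ W, ∀ g, ρ g v = v) ∨ IsNine ρ false W ∨ IsNine ρ true W) ∨
    ((∀ (n : G3 F) (x : F → G3 F), n.1 = !![0,1,0;1,0,0;0,0,1] → (∀ a, (x a).1 = !![1,a,0;0,1,0;0,0,1]) →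
      w + ∑ a : F, ρ (x a * n) w = 0) ∧
    (∀ (n : G3 F) (x : F → G3 F), n.1 = !![1,0,0;0,0,1;0,1,0] → (∀ a, (x a).1 = !![1,0,0;0,1,a;0,0,1]) →
      w + ∑ a : F, ρ (x a * n) w = 0)) := by
  classical
  obtain ⟨p, q, h⟩ := exists_four hF
  by_cases h1 : ∃ u, ∑ f, X0 ρ w u f ≠ 0
  · exact Or.inl (sys_cases hF hW (psys_pt hB) (fun u => W.sum_mem fun f _ => X0_mem hW.1 hw u f) h1)
  by_cases h2 : ∃ f, ∑ u, X0 ρ w u f ≠ 0
  · exact Or.inl (sys_cases' hF hW (psys_ln hB) (fun f => W.sum_mem fun u _ => X0_mem hW.1 hw u f) h2)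
  push Not at h1 h2
  right
  have hw1 : X0 ρ w ![1, 0, 0] ![0, 0, 1] = w := by
    rw [X0_eq hB fl_one, map_one]
    rfl
  constructor
  · intro n x hn hx
    have h3 := h2 ![0, 0, 1]
    rw [sum_b h (y := fun u => X0 ρ w u ![0, 0, 1])] at h3
    · rw [← h3, hw1]
      congr 1
      refine Finset.sum_congr rfl fun a _ => ?_
      symm
      apply X0_eq hB
      constructor
      · rw [mv_mul]
        show (x a).1 *ᵥ (n.1 *ᵥ ![1, 0, 0]) = _
        rw [hn, hx]
        ext i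
        fin_cases i <;> simp [Matrix.mulVec, dotProduct, Fin.sum_univ_three]
      · apply it_eq
        show ((x a * n : G3 F).1).transpose *ᵥ ![0, 0, 1] = _
        rw [Matrix.SpecialLinearGroup.coe_mul]
        show ((x a).1 * n.1).transpose *ᵥ ![0, 0, 1] = _
        rw [hn, hx]
        ext i
        fin_cases i <;> simp [Matrix.mulVec, dotProduct, Fin.sum_univ_three, Matrix.mul_apply]
    · by_contra h5
      exact (X0_supp h5).1 rfl
    · intro c u hc
      have h5 := X0_smul hB hc one_ne_zero u ![0, 0, 1]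
      rw [one_smul] at h5
      exact h5
    · intro u hu
      by_contra h5
      apply hu
      have h7 := (X0_supp h5).2.2
      simpa [dotProduct, Fin.sum_univ_three] using h7
  · intro n x hn hx
    have h3 := h1 ![1, 0, 0]
    rw [sum_a h (y := fun f => X0 ρ w ![1, 0, 0] f)] at h3
    · rw [← h3, hw1]
      congr 1
      refine Finset.sum_congr rfl fun a _ => ?_
      symm
      apply X0_eq hB
      constructor
      · rw [mv_mul]
        show (x a).1 *ᵥ (n.1 *ᵥ ![1, 0, 0]) = _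
        rw [hn, hx]
        ext i
        fin_cases i <;> simp [Matrix.mulVec, dotProduct, Fin.sum_univ_three]
      · apply it_eq
        show ((x a * n : G3 F).1).transpose *ᵥ ![0, 1, a] = _
        rw [Matrix.SpecialLinearGroup.coe_mul]
        show ((x a).1 * n.1).transpose *ᵥ ![0, 1, a] = _
        rw [hn, hx]
        ext i
        fin_cases i
        · simp [Matrix.mulVec, dotProduct, Fin.sum_univ_three, Matrix.mul_apply]
        · simp [Matrix.mulVec, dotProduct, Fin.sum_univ_three, Matrix.mul_apply]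
          linear_combination a * h.aoo
        · simp [Matrix.mulVec, dotProduct, Fin.sum_univ_three, Matrix.mul_apply]
    · by_contra h5
      exact (X0_supp h5).2.1 rfl
    · intro c f hc
      have h5 := X0_smul hB one_ne_zero hc ![1, 0, 0] f
      rw [one_smul] at h5
      exact h5
    · intro f hf
      by_contra h5
      apply hf
      have h7 := (X0_supp h5).2.2
      simpa [dotProduct, Fin.sum_univ_three] using h7

/-- `simp_B` from the Steinberg branch (`st_branch` of helper482) -/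
theorem simp_B_of (hst : ∀ {W : Submodule (ZMod 2) V}, Simp ρ W → ∀ {w : V}, w ∈ W → w ≠ 0 →
      (∀ g : G3 F, g.1 1 0 = 0 → g.1 2 0 = 0 → g.1 2 1 = 0 → ρ g w = w) →
      (∀ (n : G3 F) (x : F → G3 F), n.1 = !![0,1,0;1,0,0;0,0,1] → (∀ a, (x a).1 = !![1,a,0;0,1,0;0,0,1]) →
        w + ∑ a : F, ρ (x a * n) w = 0) →
      (∀ (n : G3 F) (x : F → G3 F), n.1 = !![1,0,0;0,0,1;0,1,0] → (∀ a, (x a).1 = !![1,0,0;0,1,a;0,0,1]) →
        w + ∑ a : F, ρ (x a * n) w = 0) → Is64 ρ W)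
    (hF : Fintype.card F = 4) {W : Submodule (ZMod 2) V} (hW : Simp ρ W) {w : V} (hw : w ∈ W)
    (hw0 : w ≠ 0) (hB : ∀ g : G3 F, g.1 1 0 = 0 → g.1 2 0 = 0 → g.1 2 1 = 0 → ρ g w = w) :
    (∀ v ∈ W, ∀ g, ρ g v = v) ∨ IsNine ρ false W ∨ IsNine ρ true W ∨ Is64 ρ W := by
  rcases branch hF hW hw hB with (h | h | h) | ⟨h1, h2⟩
  · exact Or.inl h
  · exact Or.inr (Or.inl h)
  · exact Or.inr (Or.inr (Or.inl h))
  · exact Or.inr (Or.inr (Or.inr (hst hW hw hw0 hB h1 h2)))

end main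

end Cfsg.Agent.H170.L34
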