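import Cfsg.Agent.H904.L34.Ext

/-!
# The vectors of a module of type nine fixed by the unitary group (helper170, S5917, row D2)
-/

set_option autoImplicit false
set_option linter.unusedSectionVars false
set_option linter.unusedSimpArgs false

namespace Cfsg.Agent.H170.L34

open Matrix Cfsg.Agent.H691.L34 Cfsg.Agent.H904.L34

section herm

variable {F : Type} [Field F] [Fintype F]

theorem hact_it_one (hF : Fintype.card F = 4) {g : G3 F} (hg : hact g (1 : M3 F) = 1) :
    hact (it g) (1 : M3 F) = 1 := by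
  have h1 : g.1 * ct g.1 = 1 := by
    have h := hg
    rw [hact_def, mul_one] at h
    exact h
  have h3 : (g⁻¹ : G3 F).1 = ct g.1 := by
    have e : (g⁻¹ : G3 F).1 * g.1 = 1 := by
      rw [← co_mul, inv_mul_cancel]; rfl
    calc (g⁻¹ : G3 F).1 = (g⁻¹ : G3 F).1 * (g.1 * ct g.1) := by rw [h1, mul_one]
      _ = ct g.1 := by rw [← mul_assoc, e, one_mul]
  have h5 : (it g).1 = g.1.map (fun a => a ^ 2) := by
    show ((g⁻¹ : G3 F).1)ᵀ = _
    rw [h3, ct, transpose_transpose]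
  rw [hact_def, mul_one, h5]
  ext i j
  have h7 := congrFun (congrFun h1 j) i
  rw [Matrix.mul_apply, Fin.sum_univ_three] at h7 ⊢
  have e : ∀ a b, ct g.1 a b = (g.1 b a) ^ 2 := fun a b => rfl
  have e' : ∀ a b, ct (g.1.map (fun a => a ^ 2)) a b = g.1 b a := fun a b => by
    show ((g.1 b a) ^ 2) ^ 2 = _
    rw [← pow_mul]
    exact pow_four hF _
  rw [e, e, e] at h7
  rw [e', e', e']
  have e3 : (1 : M3 F) j i = (1 : M3 F) i j := by
    rw [Matrix.one_apply, Matrix.one_apply]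
    simp [eq_comm]
  rw [← e3, ← h7]
  show (g.1 i 0) ^ 2 * g.1 j 0 + (g.1 i 1) ^ 2 * g.1 j 1 + (g.1 i 2) ^ 2 * g.1 j 2 = _
  ring

theorem it_g2 : it (g2 : G3 F) = g2 := by
  have h : (g2⁻¹ : G3 F) = g2 * g2 := by
    have h3 := g2_cube (F := F)
    rw [pow_succ, pow_two] at h3
    exact inv_eq_of_mul_eq_one_right (by rw [← mul_assoc]; exact h3)
  apply Subtype.ext
  show ((g2⁻¹ : G3 F).1)ᵀ = _
  rw [h, co_mul]
  ext i j
  fin_cases i <;> fin_cases j <;> simp [g2, Matrix.mul_apply, Fin.sum_univ_three]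

theorem it_g1 {w : F} (hw : w ^ 2 + w + 1 = 0) : it (g1 w hw) = g1 w hw * g1 w hw := by
  have h : ((g1 w hw)⁻¹ : G3 F) = g1 w hw * g1 w hw := by
    have h3 := g1_cube hw
    rw [pow_succ, pow_two] at h3
    exact inv_eq_of_mul_eq_one_right (by rw [← mul_assoc]; exact h3)
  apply Subtype.ext
  show (((g1 w hw)⁻¹ : G3 F).1)ᵀ = _
  rw [h, co_mul]
  ext i j
  fin_cases i <;> fin_cases j <;> simp [g1, Matrix.mul_apply, Fin.sum_univ_three]

/-- a hermitian matrix commuting with the extraspecial group is `0` or `1` -/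
theorem herm_E (hF : Fintype.card F = 4) {w : F} (hw : w ^ 2 + w + 1 = 0) {X : M3 F} (hX : HF X)
    (h1 : hact (g1 w hw) X = X) (h2 : hact g2 X = X) : X = 0 ∨ X = 1 := by
  have w3 := w3 hw
  have two : (2 : F) = 0 := two_zero hF
  have hw1 : w ≠ 1 := w_ne_one hw hF
  have a : ∀ i j, ((!![1, 0, 0; 0, w, 0; 0, 0, w ^ 2] : M3 F) * X * ct !![1, 0, 0; 0, w, 0; 0, 0, w ^ 2]) i j = X i j :=
    fun i j => congrFun (congrFun h1 i) j
  have b : ∀ i j, ((!![0, 0, 1; 1, 0, 0; 0, 1, 0] : M3 F) * X * ct (!![0, 0, 1; 1, 0, 0; 0, 1, 0] : M3 F)) i j = X i j :=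
    fun i j => congrFun (congrFun h2 i) j
  have a01 := a 0 1
  have a02 := a 0 2
  have a12 := a 1 2
  have a10 := a 1 0
  have a20 := a 2 0
  have a21 := a 2 1
  have b00 := b 0 0
  have b11 := b 1 1
  simp [ct, Matrix.mul_apply, Fin.sum_univ_three, Matrix.vecMul, dotProduct] at a01 a02 a12 a10 a20 a21
  simp [ct, Matrix.mul_apply, Fin.sum_univ_three, Matrix.vecMul, dotProduct] at b00 b11
  have n1 : w - 1 ≠ 0 := sub_ne_zero.2 hw1
  have n2 : w ^ 2 - 1 ≠ 0 := by
    intro h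
    have : w = 0 := by linear_combination hw - h - two
    rw [this] at hw
    simp at hw
  have z01 : X 0 1 = 0 := by
    refine (mul_eq_zero.1 (?_ : (w ^ 2 - 1) * X 0 1 = 0)).resolve_left n2
    linear_combination a01
  have z02 : X 0 2 = 0 := by
    refine (mul_eq_zero.1 (?_ : (w - 1) * X 0 2 = 0)).resolve_left n1
    linear_combination a02 - (w * X 0 2) * w3
  have z10 : X 1 0 = 0 := by
    refine (mul_eq_zero.1 (?_ : (w - 1) * X 1 0 = 0)).resolve_left n1
    linear_combination a10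
  have z20 : X 2 0 = 0 := by
    refine (mul_eq_zero.1 (?_ : (w ^ 2 - 1) * X 2 0 = 0)).resolve_left n2
    linear_combination a20
  have z12 : X 1 2 = 0 := by
    refine (mul_eq_zero.1 (?_ : (w ^ 2 - 1) * X 1 2 = 0)).resolve_left n2
    linear_combination a12 - (w ^ 2 * X 1 2) * w3
  have z21 : X 2 1 = 0 := by
    refine (mul_eq_zero.1 (?_ : (w - 1) * X 2 1 = 0)).resolve_left n1
    linear_combination a21 - (w * X 2 1) * w3
  have hd : X 0 0 ^ 2 = X 0 0 := congrFun (congrFun hX 0) 0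
  have hd' : X 0 0 = 0 ∨ X 0 0 = 1 := by
    have : X 0 0 * (X 0 0 - 1) = 0 := by linear_combination hd
    rcases mul_eq_zero.1 this with h | h
    · exact Or.inl h
    · exact Or.inr (sub_eq_zero.1 h)
  have z22 : X 2 2 = X 0 0 := b00
  have z11 : X 1 1 = X 0 0 := b11.symm
  rcases hd' with h | h
  · left
    ext i j
    fin_cases i <;> fin_cases j <;> simp [z01, z02, z10, z12, z20, z21, z22, z11, h]
  · right
    ext i j
    fin_cases i <;> fin_cases j <;> simp [z01, z02, z10, z12, z20, z21, z22, z11, h]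

end herm

section nine

variable {F : Type} [Field F] [Fintype F] {V : Type} [AddCommGroup V] [Module (ZMod 2) V]
  {ρ : Representation (ZMod 2) (G3 F) V}

/-- the vectors of `N` fixed by `E` or by `R` -/
theorem nineR (hF : Fintype.card F = 4) {b : Bool} {N : Submodule (ZMod 2) V} {φ : M3 F → V}
    (_ha : ∀ X Y, HF X → HF Y → φ (X + Y) = φ X + φ Y) (hi : ∀ X, HF X → φ X = 0 → X = 0)
    (hr : ∀ v, v ∈ N ↔ ∃ X, HF X ∧ φ X = v) (he : ∀ (g : G3 F) X, HF X → ρ g (φ X) = φ (hact (tw b g) X))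
    {E : Subgroup (G3 F)} (hE : ∀ g : G3 F, g ∈ E ↔ (hact g (1 : M3 F) = 1 ∧ g ^ 3 = 1)) :
    φ 1 ≠ 0 ∧ φ 1 ∈ N ∧ (∀ g : G3 F, hact g (1 : M3 F) = 1 → ρ g (φ 1) = φ 1) ∧
      (∀ v ∈ N, (∀ e ∈ E, ρ e v = v) → v = 0 ∨ v = φ 1) ∧ VE ρ E ⊓ N = Submodule.span (ZMod 2) {φ 1} := by
  obtain ⟨w, hw⟩ := exists_omega hF
  have hf1 : HF (1 : M3 F) := ct_one
  have hf0 : HF (0 : M3 F) := by
    ext i j
    show (0 : F) ^ 2 = 0
    simp
  have hR : ∀ g : G3 F, hact g (1 : M3 F) = 1 → hact (tw b g) (1 : M3 F) = 1 := by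
    intro g hg
    cases b
    · exact hg
    · exact hact_it_one hF hg
  have hfix : ∀ g : G3 F, hact g (1 : M3 F) = 1 → ρ g (φ 1) = φ 1 := fun g hg => by rw [he g 1 hf1, hR g hg]
  have hinj : ∀ X Y, HF X → HF Y → φ X = φ Y → X = Y := by
    intro X Y hX hY hXY
    have hself : ∀ Z : M3 F, Z + Z = 0 := by
      intro Z
      ext i j
      show Z i j + Z i j = 0
      exact add_self' hF _
    have hXY' : HF (X + Y) := by
      ext i j
      have e1 : (X j i) ^ 2 = X i j := congrFun (congrFun hX i) j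
      have e2 : (Y j i) ^ 2 = Y i j := congrFun (congrFun hY i) j
      show (X j i + Y j i) ^ 2 = X i j + Y i j
      linear_combination e1 + e2 + X j i * Y j i * two_zero hF
    have h3 : φ (X + Y) = 0 := by
      rw [_ha X Y hX hY, hXY]
      have h1 : (2 : ZMod 2) • φ Y = φ Y + φ Y := two_smul _ _
      rw [← h1]
      have h3 : (2 : ZMod 2) = 0 := rfl
      rw [h3, zero_smul]
    have h4 := hi (X + Y) hXY' h3
    have h5 : X + Y + Y = Y := by rw [h4, zero_add]
    rwa [add_assoc, hself, add_zero] at h5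
  have hact_hf : ∀ (g : G3 F) (X : M3 F), HF X → HF (hact g X) := by
    intro g X hX
    show ct (hact g X) = hact g X
    rw [hact_def, ct_mul hF, ct_mul hF]
    have e : ct (ct g.1) = g.1 := by
      ext i j
      show ((g.1 i j) ^ 2) ^ 2 = _
      rw [← pow_mul]
      exact pow_four hF _
    have e2 : ct X = X := hX
    rw [e, e2, mul_assoc]
  have hφ0 : φ 0 = 0 := by
    have := _ha 0 0 hf0 hf0
    rw [add_zero] at this
    exact left_eq_add.1 this
  have hE0 : ∀ v ∈ N, (∀ e ∈ E, ρ e v = v) → v = 0 ∨ v = φ 1 := by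
    intro v hv hev
    obtain ⟨X, hX, rfl⟩ := (hr v).1 hv
    have h1 : hact (tw b (g1 w hw)) X = X := by
      have e := hev (g1 w hw) ((hE _).2 ⟨mem_R_g1 hw hF, g1_cube hw⟩)
      rw [he _ _ hX] at e
      exact hinj _ _ (hact_hf _ _ hX) hX e
    have h2 : hact (tw b g2) X = X := by
      have e := hev g2 ((hE _).2 ⟨mem_R_g2 hF, g2_cube⟩)
      rw [he _ _ hX] at e
      exact hinj _ _ (hact_hf _ _ hX) hX e
    have h3 : hact (g1 w hw) X = X := by
      cases b
      · exact h1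
      · have e : hact (it (g1 w hw)) X = X := h1
        rw [it_g1] at e
        have e3 : g1 w hw = (g1 w hw * g1 w hw) * (g1 w hw * g1 w hw) := by
          have h3 := g1_cube hw
          rw [pow_succ, pow_two] at h3
          rw [← mul_assoc, h3, one_mul]
        rw [e3, hact_mul hF, e, e]
    have h4 : hact g2 X = X := by
      cases b
      · exact h2
      · have e : hact (it g2) X = X := h2
        rwa [it_g2] at e
    rcases herm_E hF hw hX h3 h4 with h | h
    · left; rw [h, hφ0]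
    · right; rw [h]
  have hmem : φ 1 ∈ N := (hr _).2 ⟨1, hf1, rfl⟩
  refine ⟨?_, hmem, hfix, hE0, ?_⟩
  · intro h
    exact one_ne_zero (hi 1 hf1 h)
  · apply le_antisymm
    · rintro v ⟨hv1, hv2⟩
      rcases hE0 v hv2 (mem_VE.1 hv1) with h | h
      · rw [h]; exact Submodule.zero_mem _
      · rw [h]; exact Submodule.mem_span_singleton_self _
    · rw [Submodule.span_le, Set.singleton_subset_iff]
      exact ⟨mem_VE.2 fun g hg => hfix g ((hE g).1 hg).1, hmem⟩

/-- the same from `IsNine` -/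
theorem nineR' (hF : Fintype.card F = 4) {b : Bool} {N : Submodule (ZMod 2) V} (h : IsNine ρ b N)
    {E : Subgroup (G3 F)} (hE : ∀ g : G3 F, g ∈ E ↔ (hact g (1 : M3 F) = 1 ∧ g ^ 3 = 1)) :
    ∃ n : V, n ≠ 0 ∧ n ∈ N ∧ (∀ g : G3 F, hact g (1 : M3 F) = 1 → ρ g n = n) ∧
      (∀ v ∈ N, (∀ e ∈ E, ρ e v = v) → v = 0 ∨ v = n) ∧ VE ρ E ⊓ N = Submodule.span (ZMod 2) {n} := by
  obtain ⟨φ, h1, h2, h3, h4⟩ := h
  exact ⟨φ 1, nineR hF h1 h2 h3 h4 hE⟩

end nine

end Cfsg.Agent.H170.L34
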